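import Cfsg.Agent.H846.Hyp

/-!
# 3-local recognition of `McL`: the centraliser condition on `J` (helper846, for S3367)
-/

set_option autoImplicit false

namespace Cfsg.Agent.H846

open Subgroup

variable {G : Type*} [Group G] [Finite G]

theorem ZDat.cenQ_of {S Z L Q J M : Subgroup G} (W : ZDat S Z L Q) {π : M →* ASix.A6} (D : JDat J M π)
    (hiii : ∀ x ∈ J, x ≠ 1 → centralizer ((R3 (centralizer ({x} : Set G)) : Subgroup G) : Set G) ≤
      R3 (centralizer ({x} : Set G))) :
    ∀ x, (∀ q ∈ Q, x * q = q * x) → x ∈ Q := by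
  have h3 := Fact.mk Nat.prime_three
  obtain ⟨T, hT, hJT, hTM⟩ := D.exists_T
  obtain ⟨g, rfl⟩ := conj_of_card W.hn W.cardS hT
  have hJne : J ≠ ⊥ := by
    intro h
    have := D.e81.card
    rw [h, Subgroup.card_bot] at this
    exact absurd this (by norm_num)
  obtain ⟨w, hwJ, hw1, hwT⟩ := Cfsg.Agent.Characters.CNBasic.exists_mem_center_of_normal (cj g S)
    (IsPGroup.of_card hT) J D.e81.isPGroup hJne (fun t ht d hd => D.conj_mem (hTM ht) hd)
  -- `w` generates a conjugate of `Z`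
  obtain ⟨z, rfl⟩ : ∃ z, w = g * z * g⁻¹ := ⟨g⁻¹ * w * g, by group⟩
  have hzZ : z ∈ Z := by
    rw [W.memZ]
    have h1 := hJT hwJ
    rw [mem_cj] at h1
    have e : g⁻¹ * (g * z * g⁻¹) * g = z := by group
    rw [e] at h1
    refine ⟨h1, fun y hy => ?_⟩
    have h2 := hwT _ (mem_cj_of (g := g) hy)
    have h4 : g * (y * z) * g⁻¹ = g * (z * y) * g⁻¹ := by
      calc g * (y * z) * g⁻¹ = g * y * g⁻¹ * (g * z * g⁻¹) := by group
        _ = g * z * g⁻¹ * (g * y * g⁻¹) := h2
        _ = g * (z * y) * g⁻¹ := by group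
    exact (mul_left_cancel (mul_right_cancel h4)).symm
  have hz1 : z ≠ 1 := by
    rintro rfl
    apply hw1
    group
  -- centralisers
  have hCz : centralizer ({z} : Set G) = centralizer (Z : Set G) := by
    apply le_antisymm
    · intro x hx
      rw [mem_centralizer_singleton_iff] at hx
      rw [mem_centralizer_iff]
      intro y hy
      have h1 : (⟨z, hzZ⟩ : Z) ≠ 1 := fun h => hz1 (congrArg Subtype.val h)
      obtain ⟨i, hi⟩ := mem_zpowers_iff.1 (mem_zpowers_of_prime_card W.cardZ (g := (⟨z, hzZ⟩ : Z)) (g' := ⟨y, hy⟩) h1)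
      have h2 : z ^ i = y := congrArg Subtype.val hi
      rw [← h2]
      exact (Commute.zpow_left (show Commute z x from hx.symm) i).eq
    · intro x hx
      rw [mem_centralizer_singleton_iff]
      exact ((mem_centralizer_iff.1 hx) z hzZ).symm
  have hle : R3 (centralizer ({g * z * g⁻¹} : Set G)) ≤ cj g Q := by
    have h1 := cj_R3_le g⁻¹ (centralizer ({g * z * g⁻¹} : Set G))
    have h2 : cj g⁻¹ (centralizer ({g * z * g⁻¹} : Set G)) = centralizer ({z} : Set G) := by
      ext x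
      rw [mem_cj, mem_centralizer_singleton_iff, mem_centralizer_singleton_iff]
      constructor
      · intro h
        have h4 : g * (x * z) * g⁻¹ = g * (z * x) * g⁻¹ := by
          calc g * (x * z) * g⁻¹ = g⁻¹⁻¹ * x * g⁻¹ * (g * z * g⁻¹) := by group
            _ = g * z * g⁻¹ * (g⁻¹⁻¹ * x * g⁻¹) := h
            _ = g * (z * x) * g⁻¹ := by group
        exact mul_left_cancel (mul_right_cancel h4)
      · intro h
        calc g⁻¹⁻¹ * x * g⁻¹ * (g * z * g⁻¹) = g * (x * z) * g⁻¹ := by group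
          _ = g * (z * x) * g⁻¹ := by rw [h]
          _ = g * z * g⁻¹ * (g⁻¹⁻¹ * x * g⁻¹) := by group
    rw [h2, hCz, ← W.Req] at h1
    intro r hr
    rw [mem_cj]
    have h4 := h1 (mem_cj_of (g := g⁻¹) hr)
    rwa [inv_inv] at h4
  intro x hx
  have h1 : g * x * g⁻¹ ∈ R3 (centralizer ({g * z * g⁻¹} : Set G)) := by
    apply hiii _ hwJ hw1
    rw [mem_centralizer_iff]
    intro r hr
    have h2 := hle hr
    rw [mem_cj] at h2
    have h4 := hx _ h2
    calc r * (g * x * g⁻¹) = g * ((g⁻¹ * r * g) * x) * g⁻¹ := by group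
      _ = g * (x * (g⁻¹ * r * g)) * g⁻¹ := by rw [h4]
      _ = g * x * g⁻¹ * r := by group
  have h2 := hle h1
  rw [mem_cj] at h2
  have e : g⁻¹ * (g * x * g⁻¹) * g = x := by group
  rwa [e] at h2

end Cfsg.Agent.H846
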