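import Cfsg.Agent.H846.Basic
import Cfsg.Agent.LFourB.RBStd
import Cfsg.Agent.HKS.CaseThreeAux
import Cfsg.Agent.H846.Elim.PSLd

/-!
# Subgroups of `SL_2(5)` (helper846)

* `of_fifteen` : a subgroup of order divisible by 15 is everything;
* `not_nine` : if `E ≅ SL_2(5)` is normal in `B` and contains its centraliser then `9 ∤ |B|`.
-/

set_option autoImplicit false

namespace Cfsg.Agent.H846.SLFive

open Subgroup

abbrev E5 : Type := Matrix.SpecialLinearGroup (Fin 2) (ZMod 5)

instance : Fact (Nat.Prime 5) := ⟨by norm_num⟩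

theorem card_E5 : Nat.card E5 = 120 := by
  have h := Elim.card_SL2 (ZMod 5)
  rw [ZMod.card] at h
  exact h

theorem center_cases {c : E5} (h : c ∈ center E5) : c = 1 ∨ c = -1 := by
  rw [Matrix.SpecialLinearGroup.mem_center_iff] at h
  obtain ⟨r, hr, h2⟩ := h
  rw [Fintype.card_fin] at hr
  have h3 : r = 1 ∨ r = -1 := by
    rw [sq] at hr
    exact mul_self_eq_one_iff.1 hr
  rcases h3 with rfl | rfl
  · left
    apply Subtype.ext
    rw [← h2]
    simp
  · right
    apply Subtype.ext
    rw [← h2]
    ext i j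
    fin_cases i <;> fin_cases j <;> simp

theorem card_center_le : Nat.card (center E5) ≤ 2 := by
  have h : Function.Injective (fun c : center E5 => decide ((c : E5) = 1)) := by
    intro a b hab
    have h1 : ((a : E5) = 1) ↔ ((b : E5) = 1) := by simpa using hab
    apply Subtype.ext
    rcases center_cases a.2 with ha | ha
    · rw [ha, h1.1 ha]
    · rcases center_cases b.2 with hb | hb
      · rw [hb, h1.2 hb]
      · rw [ha, hb]
  have := Nat.card_le_card_of_injective _ h
  simpa using this

theorem index_le_four (H : Subgroup E5) (h : H.index ≤ 4) : H = ⊤ := by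
  rcases LFourB.RB.sl_normal (F := ZMod 5) (by rw [ZMod.card]; norm_num) H.normalCore with h1 | h1
  · exfalso
    have h2 : Nat.card H.normalCore ≤ 2 := (Subgroup.card_le_of_le h1).trans card_center_le
    have h3 : H.normalCore.index ≤ 24 := by
      rw [Subgroup.normalCore_eq_ker, Subgroup.index_ker]
      calc Nat.card (MulAction.toPermHom E5 (E5 ⧸ H)).range ≤ Nat.card (Equiv.Perm (E5 ⧸ H)) :=
            Nat.card_le_card_of_injective _ (Subgroup.subtype_injective _)
        _ = (Nat.card (E5 ⧸ H)).factorial := Nat.card_perm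
        _ ≤ Nat.factorial 4 := Nat.factorial_le h
        _ = 24 := rfl
    have h4 := H.normalCore.card_mul_index
    rw [card_E5] at h4
    have : Nat.card H.normalCore * H.normalCore.index ≤ 2 * 24 := Nat.mul_le_mul h2 h3
    omega
  · rw [eq_top_iff, ← h1]
    exact H.normalCore_le

theorem of_fifteen (H : Subgroup E5) (h : 15 ∣ Nat.card H) : H = ⊤ := by
  set C := center E5 with hC
  have hneg : (-1 : E5) ∈ C := by
    rw [hC, mem_center_iff]
    intro g
    rw [mul_neg_one, neg_one_mul]
  have hord : orderOf (-1 : E5) = 2 := by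
    apply orderOf_eq_prime
    · rw [neg_one_sq]
    · intro h
      have := congrArg (fun z : E5 => (z : Matrix (Fin 2) (Fin 2) (ZMod 5)) 0 0) h
      revert this
      decide
  have h2 : 2 ∣ Nat.card (H ⊔ C : Subgroup E5) := by
    have h0 := orderOf_dvd_natCard (⟨-1, (le_sup_right : C ≤ H ⊔ C) hneg⟩ : (H ⊔ C : Subgroup E5))
    rwa [Subgroup.orderOf_mk, hord] at h0
  have h15 : 15 ∣ Nat.card (H ⊔ C : Subgroup E5) := h.trans (card_dvd_of_le le_sup_left)
  have h30 : 30 ∣ Nat.card (H ⊔ C : Subgroup E5) :=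
    Nat.Coprime.mul_dvd_of_dvd_of_dvd (by norm_num : Nat.Coprime 2 15) h2 h15
  have htop : H ⊔ C = ⊤ := by
    apply index_le_four
    have h4 := (H ⊔ C).card_mul_index
    rw [card_E5] at h4
    obtain ⟨m, hm⟩ := h30
    rw [hm] at h4
    have hm0 : 1 ≤ m := by
      rcases Nat.eq_zero_or_pos m with rfl | hm0
      · simp at h4
      · exact hm0
    have : 30 * 1 * (H ⊔ C).index ≤ 30 * m * (H ⊔ C).index := by gcongr
    omega
  apply index_le_four
  have h5 : C.relIndex (H ⊔ C) = C.relIndex H := Subgroup.relIndex_sup_right H C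
  have h6 : C.relIndex H ≤ Nat.card H := by
    have := (C.subgroupOf H).index_mul_card
    change C.relIndex H * _ = _ at this
    have h7 : 0 < Nat.card (C.subgroupOf H) := Nat.card_pos
    nlinarith
  rw [htop, relIndex_top_right] at h5
  have h8 := C.card_mul_index
  have h9 := H.card_mul_index
  have h10 : Nat.card C ≤ 2 := card_center_le
  rw [card_E5] at h8 h9
  rw [h5] at h8
  have h11 : Nat.card C * C.relIndex H ≤ 2 * Nat.card H := Nat.mul_le_mul h10 h6
  have h12 : 60 ≤ Nat.card H := by omega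
  have : 60 * H.index ≤ Nat.card H * H.index := by gcongr
  omega

theorem normal_three (H : Subgroup E5) [H.Normal] (h : 3 ∣ Nat.card H) : H = ⊤ := by
  rcases LFourB.RB.sl_normal (F := ZMod 5) (by rw [ZMod.card]; norm_num) H with h1 | h1
  · exfalso
    have h2 := (Subgroup.card_le_of_le h1).trans card_center_le
    have := Nat.le_of_dvd Nat.card_pos h
    omega
  · exact h1

theorem card_five : Nat.card {x : E5 // x ^ 5 = 1 ∧ x ≠ 1} = 24 := by
  rw [Nat.card_eq_fintype_card]
  decide +kernel

variable {B : Type*} [Group B] [Finite B]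

/-- elements of order 3 do not commute with elements of order 5 -/
theorem no_comm {E : Subgroup B} [hE : E.Normal] (e : E ≃* E5) (hC : centralizer (E : Set B) ≤ E) {x : B}
    (hx3 : x ^ 3 = 1) (hx1 : x ≠ 1) {h : B} (hh : h ∈ E) (h5 : h ^ 5 = 1) (h1 : h ≠ 1) : x * h ≠ h * x := by
  intro hxh
  let H : Subgroup B := E ⊓ centralizer {x}
  have hmod := card_modEq_fix Nat.prime_three hx3 E (fun w hw => hE.conj_mem w hw x)
  have hcE : Nat.card E = 120 := by rw [Nat.card_congr e.toEquiv, card_E5]
  have h3 : 3 ∣ Nat.card H := by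
    rw [← Nat.modEq_zero_iff_dvd]
    refine hmod.symm.trans ?_
    rw [hcE]
    rfl
  have h5' : 5 ∣ Nat.card H := by
    have ho : orderOf h = 5 := orderOf_eq_prime h5 h1
    have hmem : h ∈ H := mem_inf.2 ⟨hh, mem_centralizer_singleton_iff.2 hxh.symm⟩
    have := orderOf_dvd_natCard (⟨h, hmem⟩ : H)
    rwa [Subgroup.orderOf_mk, ho] at this
  have h15 : 15 ∣ Nat.card H := Nat.Coprime.mul_dvd_of_dvd_of_dvd (by norm_num : Nat.Coprime 3 5) h3 h5'
  have htop : (H.subgroupOf E).map e.toMonoidHom = ⊤ := by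
    apply of_fifteen
    rw [Subgroup.card_map_of_injective e.injective, Nat.card_congr (subgroupOfEquivOfLe inf_le_left).toEquiv]
    exact h15
  have hle : E ≤ centralizer {x} := by
    intro y hy
    have h6 : e ⟨y, hy⟩ ∈ (H.subgroupOf E).map e.toMonoidHom := by rw [htop]; exact mem_top _
    obtain ⟨y', hy', he⟩ := h6
    have h7 : y' = ⟨y, hy⟩ := e.injective he
    rw [h7] at hy'
    exact (mem_inf.1 (mem_subgroupOf.1 hy')).2
  have hxE : x ∈ E := by
    apply hC
    rw [mem_centralizer_iff]
    exact fun y hy => mem_centralizer_singleton_iff.1 (hle hy)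
  have hcen : e ⟨x, hxE⟩ ∈ center E5 := by
    rw [mem_center_iff]
    intro g
    obtain ⟨y, rfl⟩ := e.surjective g
    rw [← map_mul, ← map_mul]
    congr 1
    exact Subtype.ext (mem_centralizer_singleton_iff.1 (hle y.2))
  have hsq : (e ⟨x, hxE⟩) ^ 2 = 1 := by
    rcases center_cases hcen with h | h
    · rw [h, one_pow]
    · rw [h, neg_one_sq]
  have hx2 : x ^ 2 = 1 := by
    rw [← map_pow, map_eq_one_iff e e.injective] at hsq
    exact congrArg Subtype.val hsq
  apply hx1
  calc x = x ^ 3 * (x ^ 2)⁻¹ := by group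
    _ = 1 := by rw [hx3, hx2]; group

/-- `9` does not divide the order -/
theorem not_nine {E : Subgroup B} [hE : E.Normal] (e : E ≃* E5) (hC : centralizer (E : Set B) ≤ E) :
    ¬ 9 ∣ Nat.card B := by
  intro h9
  have h3F : Fact (Nat.Prime 3) := ⟨Nat.prime_three⟩
  obtain ⟨P, hP⟩ := Sylow.exists_subgroup_card_pow_prime (G := B) 3 (n := 2) h9
  let X := {x : E // x ^ 5 = 1 ∧ x ≠ 1}
  let act : MulAction P X :=
    { smul := fun p x => ⟨⟨p * x.1 * (p : B)⁻¹, hE.conj_mem _ x.1.2 p⟩, by
        constructor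
        · apply Subtype.ext
          change ((p : B) * x.1 * (p : B)⁻¹) ^ 5 = 1
          rw [conj_pow]
          have h1 : ((x.1 : E) : B) ^ 5 = 1 := congrArg Subtype.val x.2.1
          rw [h1]
          group
        · intro h
          apply x.2.2
          have h1 : (p : B) * x.1 * (p : B)⁻¹ = 1 := congrArg Subtype.val h
          apply Subtype.ext
          change ((x.1 : E) : B) = 1
          rw [mul_inv_eq_one] at h1
          exact mul_left_cancel (h1.trans (mul_one _).symm)⟩
      one_smul := fun x => Subtype.ext (Subtype.ext (by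
        change (1 : B) * x.1 * (1 : B)⁻¹ = x.1
        group))
      mul_smul := fun p q x => Subtype.ext (Subtype.ext (by
        change ((p : B) * q) * x.1 * ((p : B) * q)⁻¹ = p * (q * x.1 * (q : B)⁻¹) * (p : B)⁻¹
        group)) }
  have hfree : ∀ (p : P) (x : X), p • x = x → p = 1 := by
    intro p x hpx
    have h1 : (p : B) * x.1 * (p : B)⁻¹ = x.1 := congrArg (fun z : X => ((z.1 : E) : B)) hpx
    have h2 : (p : B) * x.1 = x.1 * p := mul_inv_eq_iff_eq_mul.1 h1
    by_contra hp1
    have hpB : (p : B) ≠ 1 := fun h => hp1 (Subtype.ext h)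
    have hp9 : (p : B) ^ 9 = 1 := by
      have := pow_card_eq_one' (x := p)
      rw [hP] at this
      exact congrArg Subtype.val this
    have hx5 : ((x.1 : E) : B) ^ 5 = 1 := congrArg Subtype.val x.2.1
    have hx1 : ((x.1 : E) : B) ≠ 1 := fun h => x.2.2 (Subtype.ext h)
    by_cases h3 : (p : B) ^ 3 = 1
    · exact no_comm e hC h3 hpB x.1.2 hx5 hx1 h2
    · refine no_comm e hC (x := (p : B) ^ 3) ?_ h3 x.1.2 hx5 hx1 ?_
      · rw [← pow_mul]
        exact hp9
      · exact ((show Commute (p : B) x.1 from h2).pow_left 3).eq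
  have hcard : Nat.card X = 24 := by
    rw [← card_five]
    refine Nat.card_congr (e.toEquiv.subtypeEquiv fun a => ?_)
    change a ^ 5 = 1 ∧ a ≠ 1 ↔ (e a) ^ 5 = 1 ∧ e a ≠ 1
    rw [← map_pow, map_eq_one_iff e e.injective, Ne, Ne, map_eq_one_iff e e.injective]
  have hdvd : Nat.card P ∣ Nat.card X := HKS.CaseThree.card_dvd_of_free hfree
  rw [hP, hcard] at hdvd
  exact absurd hdvd (by norm_num)

end Cfsg.Agent.H846.SLFive
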