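import Cfsg.Agent.H846.Hyp
import Cfsg.Agent.H846.SLFive
import Cfsg.Agent.H446.ExtraAct
import Cfsg.Agent.Lib.GenFitting
import Cfsg.Agent.S1755
import Cfsg.Agent.H827.FStar
import Cfsg.Agent.CpAut.Fix

/-!
# 3-local recognition of `McL`: the hypotheses of S2913 (helper846)
-/

set_option autoImplicit false

namespace Cfsg.Agent.H846

open Subgroup
open Cfsg.Agent.Lib.LocalCore (le_map_pCore le_normalizer_map_pCore isPGroup_map_pCore)

/-! ### the quotient -/

section quot

variable {C : Type*} [Group C] [Finite C]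

/-- a Sylow 3-subgroup of `C` has order `3^6` -/
theorem card_sylow_C (F : Subgroup C) [F.Normal] (hF : Nat.card F = 3 ^ 5)
    (e : Cfsg.generalizedFittingSubgroup (C ⧸ F) ≃* SLFive.E5) :
    3 ^ 6 ∣ Nat.card C ∧ ¬ 3 ^ 7 ∣ Nat.card C := by
  have hn : (Cfsg.generalizedFittingSubgroup (C ⧸ F)).Normal := Lib.GenFitting.genFitting_normal
  have h9 := SLFive.not_nine e Lib.GenFitting.centralizer_genFitting_le
  have hc := Subgroup.card_eq_card_quotient_mul_card_subgroup F
  rw [hF] at hc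
  have h120 : 120 ∣ Nat.card (C ⧸ F) := by
    rw [← SLFive.card_E5, ← Nat.card_congr e.toEquiv]
    exact card_subgroup_dvd_card _
  rw [hc]
  constructor
  · have : 3 ^ 6 = 3 * 3 ^ 5 := by norm_num
    rw [this]
    exact Nat.mul_dvd_mul ((by norm_num : 3 ∣ 120).trans h120) (dvd_refl _)
  · intro h
    apply h9
    have : 3 ^ 7 = 9 * 3 ^ 5 := by norm_num
    rw [this] at h
    exact Nat.dvd_of_mul_dvd_mul_right (by norm_num) h

/-- normal subgroups containing a Sylow 3-subgroup contain the preimage of `F*(C / F)` -/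
theorem comap_le (F : Subgroup C) [F.Normal] (hF : Nat.card F = 3 ^ 5)
    (e : Cfsg.generalizedFittingSubgroup (C ⧸ F) ≃* SLFive.E5) {S N : Subgroup C} (hFS : F ≤ S)
    (hS : Nat.card S = 3 ^ 6) (hN : N.Normal) (hSN : S ≤ N) :
    (Cfsg.generalizedFittingSubgroup (C ⧸ F)).comap (QuotientGroup.mk' F) ≤ N := by
  have h3F : Fact (Nat.Prime 3) := ⟨Nat.prime_three⟩
  set E := Cfsg.generalizedFittingSubgroup (C ⧸ F) with hE
  have hn : E.Normal := Lib.GenFitting.genFitting_normal
  have h9 := SLFive.not_nine e Lib.GenFitting.centralizer_genFitting_le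
  have hcE : Nat.card E = 120 := by rw [Nat.card_congr e.toEquiv, SLFive.card_E5]
  -- an element of `S` not in `F`
  obtain ⟨s, hs, hsF⟩ : ∃ s ∈ S, s ∉ F := by
    by_contra h
    push Not at h
    have := card_dvd_of_le (show S ≤ F from h)
    rw [hS, hF] at this
    exact absurd (Nat.le_of_dvd (by norm_num) this) (by norm_num)
  have hs3 : ∃ k, orderOf (QuotientGroup.mk' F s) = 3 ^ k := by
    have h1 : s ^ 3 ^ 6 = 1 := by
      have := pow_card_eq_one' (x := (⟨s, hs⟩ : S))
      rw [hS] at this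
      exact congrArg Subtype.val this
    obtain ⟨k, -, hk⟩ := (Nat.dvd_prime_pow Nat.prime_three).1
      (orderOf_dvd_of_pow_eq_one (x := QuotientGroup.mk' F s) (n := 3 ^ 6) (by rw [← map_pow, h1, map_one]))
    exact ⟨k, hk⟩
  -- it lies in `E`
  have hsE : QuotientGroup.mk' F s ∈ E := by
    obtain ⟨k, hk⟩ := hs3
    have h1 : orderOf ((QuotientGroup.mk' F s : C ⧸ F) : (C ⧸ F) ⧸ E) ∣ 3 ^ k := by
      rw [← hk]
      exact orderOf_map_dvd (QuotientGroup.mk' E) _
    obtain ⟨j, -, hj⟩ := (Nat.dvd_prime_pow Nat.prime_three).1 h1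
    have h2 : 3 ^ j ∣ Nat.card ((C ⧸ F) ⧸ E) := hj ▸ orderOf_dvd_natCard _
    have h4 : j = 0 := by
      by_contra hj0
      apply h9
      have h5 : 3 ∣ Nat.card ((C ⧸ F) ⧸ E) := (dvd_pow_self 3 hj0).trans h2
      have h6 := Subgroup.card_eq_card_quotient_mul_card_subgroup E
      rw [h6, hcE]
      exact Nat.mul_dvd_mul h5 (by norm_num : 3 ∣ 120)
    rw [h4, pow_zero, orderOf_eq_one_iff] at hj
    exact (QuotientGroup.eq_one_iff _).1 hj
  -- the intersection
  have hNm : (N.map (QuotientGroup.mk' F)).Normal := hN.map _ (QuotientGroup.mk'_surjective F)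
  let D : Subgroup E := (N.map (QuotientGroup.mk' F)).subgroupOf E
  have hDn : D.Normal := Subgroup.normal_subgroupOf
  have hDm : (D.map e.toMonoidHom).Normal := hDn.map _ e.surjective
  have h3 : 3 ∣ Nat.card (D.map e.toMonoidHom) := by
    rw [Subgroup.card_map_of_injective e.injective]
    obtain ⟨k, hk⟩ := hs3
    have hmem : (⟨_, hsE⟩ : E) ∈ D := mem_subgroupOf.2 (mem_map_of_mem _ (hSN hs))
    have h1 : orderOf (⟨_, hmem⟩ : D) ∣ Nat.card D := orderOf_dvd_natCard _
    rw [Subgroup.orderOf_mk, Subgroup.orderOf_mk, hk] at h1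
    have hk0 : k ≠ 0 := by
      rintro rfl
      rw [pow_zero, orderOf_eq_one_iff] at hk
      exact hsF ((QuotientGroup.eq_one_iff s).1 hk)
    exact (dvd_pow_self 3 hk0).trans h1
  have htop := SLFive.normal_three (D.map e.toMonoidHom) h3
  intro x hx
  have h1 : e ⟨_, hx⟩ ∈ D.map e.toMonoidHom := by rw [htop]; exact mem_top _
  obtain ⟨y, hy, hye⟩ := h1
  have h2 : y = ⟨_, hx⟩ := e.injective hye
  rw [h2] at hy
  obtain ⟨n, hn, hnx⟩ := mem_subgroupOf.1 hy
  have h4 : n⁻¹ * x ∈ F := by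
    have h5 : QuotientGroup.mk' F n = QuotientGroup.mk' F x := hnx
    exact QuotientGroup.eq.1 h5
  have h5 := mul_mem hn (hSN (hFS h4))
  rwa [mul_inv_cancel_left] at h5

/-- the order of the preimage -/
theorem card_comap (F : Subgroup C) [F.Normal] (E : Subgroup (C ⧸ F)) :
    Nat.card (E.comap (QuotientGroup.mk' F)) = Nat.card F * Nat.card E := by
  have h1 := Subgroup.card_eq_card_quotient_mul_card_subgroup F
  have h2 := (E.comap (QuotientGroup.mk' F)).card_mul_index
  have h3 := E.card_mul_index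
  rw [Subgroup.index_comap_of_surjective _ (QuotientGroup.mk'_surjective F)] at h2
  have h4 : 0 < E.index := Nat.pos_of_ne_zero Subgroup.index_ne_zero_of_finite
  apply Nat.eq_of_mul_eq_mul_right h4
  rw [h2, h1, ← h3]
  ring

end quot

variable {G : Type*} [Group G] [Finite G]

omit [Finite G] in
theorem comm_of_card_three {Z : Subgroup G} (hZ : Nat.card Z = 3) : ∀ x ∈ Z, ∀ y ∈ Z, x * y = y * x := by
  have h3F : Fact (Nat.Prime 3) := ⟨Nat.prime_three⟩
  have := isCyclic_of_prime_card hZ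
  have hc : Std.Commutative (fun a b : Z => a * b) := IsCyclic.isMulCommutative.is_comm
  intro x hx y hy
  exact congrArg Subtype.val (hc.comm ⟨x, hx⟩ ⟨y, hy⟩)

theorem hypM (Z : Subgroup G) (hZ : Nat.card Z = 3) (C : Subgroup G) (hCdef : C = centralizer (Z : Set G))
    (S : Sylow 3 C) (F : Subgroup C) (hFdef : F = Cfsg.generalizedFittingSubgroup C)
    (hQ : Cfsg.IsExtraspecial 3 F) (hQcard : Nat.card F = 3 ^ 5) [hQn : F.Normal] (hexp : ∀ x ∈ F, x ^ 3 = 1)
    (e : Cfsg.generalizedFittingSubgroup (C ⧸ F) ≃* SLFive.E5) :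
    Loc ((S : Subgroup C).map C.subtype) Z (F.map C.subtype) ∧ ¬ 3 ^ 7 ∣ Nat.card G ∧
      ¬ 2 ^ 5 ∣ Nat.card (centralizer (Z : Set G)) := by
  have h3 : Fact (Nat.Prime 3) := ⟨Nat.prime_three⟩
  have hC : ∀ x, x ∈ C ↔ ∀ z ∈ Z, x * z = z * x := by
    intro x
    rw [hCdef, mem_centralizer_iff]
    exact ⟨fun h z hz => (h z hz).symm, fun h z hz => (h z hz).symm⟩
  obtain ⟨h6, h7⟩ := card_sylow_C F hQcard e
  have hcS : Nat.card (S : Subgroup C) = 3 ^ 6 := by
    obtain ⟨k, hk⟩ := IsPGroup.iff_card.1 S.isPGroup'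
    have h2 : 3 ^ 6 ∣ Nat.card (S : Subgroup C) := S.pow_dvd_card_of_pow_dvd_card h6
    have h4 := card_subgroup_dvd_card (S : Subgroup C)
    rw [hk] at h2 h4 ⊢
    have h5 : 6 ≤ k := (Nat.pow_dvd_pow_iff_le_right (by norm_num)).1 h2
    have h6 : k ≤ 6 := by
      by_contra hcon
      push Not at hcon
      exact h7 ((pow_dvd_pow 3 hcon).trans h4)
    have : k = 6 := by omega
    rw [this]
  have hFp : IsPGroup 3 F := hQ.1.1
  have hFS : F ≤ (S : Subgroup C) := by
    have h2 : IsPGroup 3 (F ⊔ (S : Subgroup C) : Subgroup C) := hFp.to_sup_of_normal_left S.isPGroup'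
    have h4 := S.is_maximal' h2 le_sup_right
    rw [← h4]
    exact le_sup_left
  have cenF : centralizer (F : Set C) ≤ F := by
    rw [hFdef]
    exact Lib.GenFitting.centralizer_genFitting_le
  have hFc : F = Cfsg.pCore 3 C := by
    apply le_antisymm (Lib.Cores.le_pCore hQn hFp)
    refine (Lib.Cores.pCore_le_fittingSubgroup 3).trans ?_
    rw [hFdef, Lib.GenFitting.genFitting_def]
    exact le_sup_right
  have hZcomm := comm_of_card_three hZ
  have hZC : Z ≤ C := fun z hz => (hC z).2 (hZcomm z hz)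
  have hZF : ∀ z (hz : z ∈ Z), (⟨z, hZC hz⟩ : C) ∈ F := by
    intro z hz
    rw [hFdef]
    apply S1755.center_le_gfs
    rw [mem_center_iff]
    intro g
    exact Subtype.ext ((hC g).1 g.2 z hz)
  -- the centre of `F`
  have hZcen : Z.subgroupOf C = (center F).map F.subtype := by
    apply Subgroup.eq_of_le_of_card_ge
    · intro z hz
      have hz' : (z : G) ∈ Z := mem_subgroupOf.1 hz
      refine ⟨⟨z, hZF z hz'⟩, ?_, rfl⟩
      rw [SetLike.mem_coe, mem_center_iff]
      intro g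
      exact Subtype.ext (Subtype.ext ((hC g).1 (g : C).2 z hz'))
    · rw [Subgroup.card_map_of_injective F.subtype_injective, Transfer.Extraspecial.card_center hQ,
        Nat.card_congr (subgroupOfEquivOfLe hZC).toEquiv, hZ]
  have hcS' : Nat.card ((S : Subgroup C).map C.subtype) = 3 ^ 6 := by
    rw [Subgroup.card_map_of_injective C.subtype_injective, hcS]
  have memZ : ∀ x, x ∈ Z ↔ x ∈ (S : Subgroup C).map C.subtype ∧ ∀ y ∈ (S : Subgroup C).map C.subtype, x * y = y * x := by
    intro x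
    constructor
    · intro hx
      refine ⟨⟨⟨x, hZC hx⟩, hFS (hZF x hx), rfl⟩, ?_⟩
      rintro _ ⟨y, hy, rfl⟩
      exact ((hC y).1 y.2 x hx).symm
    · rintro ⟨⟨s, hs, rfl⟩, hy⟩
      have h1 : s ∈ F := by
        apply cenF
        rw [mem_centralizer_iff]
        intro f hf
        exact Subtype.ext (hy _ ⟨f, hFS hf, rfl⟩).symm
      have h2 : s ∈ (center F).map F.subtype := by
        refine ⟨⟨s, h1⟩, ?_, rfl⟩
        rw [SetLike.mem_coe, mem_center_iff]
        intro g
        exact Subtype.ext (Subtype.ext (hy _ ⟨g, hFS g.2, rfl⟩).symm)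
      rw [← hZcen] at h2
      exact mem_subgroupOf.1 h2
  have hCN : ∀ x ∈ C, ∀ z ∈ Z, x * z * x⁻¹ ∈ Z := by
    intro x hx z hz
    rw [(hC x).1 hx z hz, mul_assoc, mul_inv_cancel, mul_one]
    exact hz
  have nor : ∀ n, (∀ z ∈ Z, n * z * n⁻¹ ∈ Z) → ∀ q ∈ F.map C.subtype, n * q * n⁻¹ ∈ F.map C.subtype := by
    intro n hn r hr
    have hnN : n ∈ normalizer (Z : Set G) := mem_normalizer_of hn
    rw [hFc] at hr ⊢
    have h1 := cj_R3_le n C (mem_cj_of hr)
    have h2 : cj n C = C := by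
      apply cj_eq_of_normalizes
      intro c hc
      rw [hC] at hc ⊢
      intro z hz
      have h4 : n⁻¹ * z * n ∈ Z := by
        have := conj_mem_of_normalizer (inv_mem hnN) z hz
        rwa [inv_inv] at this
      have h5 := hc _ h4
      calc n * c * n⁻¹ * z = n * (c * (n⁻¹ * z * n)) * n⁻¹ := by group
        _ = n * ((n⁻¹ * z * n) * c) * n⁻¹ := by rw [h5]
        _ = z * (n * c * n⁻¹) := by group
    rw [h2] at h1
    exact h1
  have hSZ : ∀ n, (∀ s ∈ (S : Subgroup C).map C.subtype, n * s * n⁻¹ ∈ (S : Subgroup C).map C.subtype) →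
      ∀ z ∈ Z, n * z * n⁻¹ ∈ Z := by
    intro n hn z hz
    obtain ⟨hz1, hz2⟩ := (memZ z).1 hz
    rw [memZ]
    refine ⟨hn z hz1, fun y hy => ?_⟩
    have hnN : n ∈ normalizer (((S : Subgroup C).map C.subtype : Subgroup G) : Set G) := mem_normalizer_of hn
    have h4 := conj_mem_of_normalizer (inv_mem hnN) y hy
    rw [inv_inv] at h4
    have h5 := hz2 _ h4
    calc n * z * n⁻¹ * y = n * (z * (n⁻¹ * y * n)) * n⁻¹ := by group
      _ = n * ((n⁻¹ * y * n) * z) * n⁻¹ := by rw [h5]
      _ = y * (n * z * n⁻¹) := by group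
  -- `S` is a Sylow subgroup of `G`
  have hn : ¬ 3 ^ 7 ∣ Nat.card G := by
    intro h
    obtain ⟨K, hK, hle⟩ := Sylow.exists_subgroup_card_pow_succ h hcS'
    have hidx : (((S : Subgroup C).map C.subtype).subgroupOf K).index = 3 := by
      have h1 := (((S : Subgroup C).map C.subtype).subgroupOf K).card_mul_index
      rw [Nat.card_congr (subgroupOfEquivOfLe hle).toEquiv, hcS', hK] at h1
      have : 3 ^ (6 + 1) = 3 ^ 6 * 3 := by norm_num
      rw [this] at h1
      exact Nat.eq_of_mul_eq_mul_left (by norm_num) h1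
    have hnorm : (((S : Subgroup C).map C.subtype).subgroupOf K).Normal := by
      apply Subgroup.normal_of_index_eq_minFac_card
      rw [hidx, hK, Nat.Prime.pow_minFac Nat.prime_three (by norm_num)]
    have hKC : K ≤ C := by
      intro k hk
      rw [hC]
      have h1 : k ∈ normalizer (Z : Set G) := by
        apply mem_normalizer_of
        apply hSZ
        intro s hs
        exact mem_subgroupOf.1 (hnorm.conj_mem ⟨s, hle hs⟩ (mem_subgroupOf.2 hs) ⟨k, hk⟩)
      refine three_comm hZ h1 (k := 7) ?_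
      have := pow_card_eq_one' (x := (⟨k, hk⟩ : K))
      rw [hK] at this
      exact congrArg Subtype.val this
    have := card_dvd_of_le hKC
    rw [hK] at this
    exact h7 this
  have hEn : (Cfsg.generalizedFittingSubgroup (C ⧸ F)).Normal := Lib.GenFitting.genFitting_normal
  have hLn : ((Cfsg.generalizedFittingSubgroup (C ⧸ F)).comap (QuotientGroup.mk' F)).Normal := hEn.comap _
  obtain ⟨L', h2⟩ := mk_loc (S := (S : Subgroup C).map C.subtype) (Z := Z) (Q := F.map C.subtype)
    (L := ((Cfsg.generalizedFittingSubgroup (C ⧸ F)).comap (QuotientGroup.mk' F)).map C.subtype) hcS' memZ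
    (Subgroup.map_mono hFS)
    (H446.ExtraAct.isExtraspecial_of_equiv (Subgroup.equivMapOfInjective F C.subtype C.subtype_injective) hQ)
    (by rw [Subgroup.card_map_of_injective C.subtype_injective, hQcard])
    (by
      rintro _ ⟨q, hq, rfl⟩
      exact congrArg Subtype.val (hexp q hq))
    nor
    (by
      intro x hx
      have hxC : x ∈ C := (hC x).2 fun z hz => hx z ⟨⟨z, hZC hz⟩, hZF z hz, rfl⟩
      refine ⟨⟨x, hxC⟩, ?_, rfl⟩
      apply cenF
      rw [mem_centralizer_iff]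
      intro f hf
      exact Subtype.ext (hx _ ⟨f, hf, rfl⟩).symm)
    (Subgroup.map_mono (by
      intro f hf
      rw [mem_comap]
      have : QuotientGroup.mk' F f = 1 := (QuotientGroup.eq_one_iff f).2 hf
      rw [this]
      exact one_mem _))
    (by
      rw [Subgroup.card_map_of_injective C.subtype_injective, card_comap, hQcard, Nat.card_congr e.toEquiv,
        SLFive.card_E5])
    (by
      rintro _ ⟨x, hx, rfl⟩
      exact (hC x).1 x.2)
    (by
      intro N hN hSN
      rintro _ ⟨x, hx, rfl⟩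
      have h1 := comap_le F hQcard e hFS hcS (N := N.subgroupOf C) (Subgroup.normal_subgroupOf)
        (fun s hs => mem_subgroupOf.2 (hSN ⟨s, hs, rfl⟩)) hx
      exact mem_subgroupOf.1 h1)
    (by
      rintro n hn _ ⟨x, hx, rfl⟩
      exact ⟨_, hLn.conj_mem x hx ⟨n, (hC n).2 hn⟩, rfl⟩)
  exact ⟨L', hn, h2⟩

/-! ### the data at `J` -/

theorem jdatM (J : Subgroup G) (hJ : Cfsg.IsElementaryAbelian 3 J) (hJcard : Nat.card J = 3 ^ 4) (N : Subgroup G)
    (hN : N = normalizer (J : Set G)) [hJn : (J.subgroupOf N).Normal]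
    (e : ↥(Subgroup.closure {x : N ⧸ J.subgroupOf N | ∃ k : ℕ, orderOf x = 3 ^ k}) ≃* ↥(alternatingGroup (Fin 6))) :
    ∃ (M : Subgroup G) (π : M →* ASix.A6), JDat J M π := by
  set T := Subgroup.closure {x : N ⧸ J.subgroupOf N | ∃ k : ℕ, orderOf x = 3 ^ k} with hT
  have hTn : T.Normal := by
    constructor
    intro t ht g
    have h1 : T ≤ T.comap (MulAut.conj g).toMonoidHom := by
      rw [hT, closure_le]
      rintro x ⟨k, hk⟩
      apply Subgroup.subset_closure
      exact ⟨k, by rw [← hk]; exact (MulAut.conj g).orderOf_eq x⟩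
    exact h1 ht
  have hJN : J ≤ N := hN ▸ le_normalizer
  have hNmem : ∀ {x : G}, (∀ j ∈ J, x * j * x⁻¹ ∈ J) → x ∈ N := fun h => hN ▸ mem_normalizer_of h
  let M' : Subgroup N := T.comap (QuotientGroup.mk' (J.subgroupOf N))
  let M : Subgroup G := M'.map N.subtype
  have hMN : M ≤ N := map_subtype_le _
  have hmem : ∀ m (hm : m ∈ M), QuotientGroup.mk' (J.subgroupOf N) ⟨m, hMN hm⟩ ∈ T := by
    rintro _ ⟨m, hm, rfl⟩
    exact hm
  let φ : M →* T := ((QuotientGroup.mk' (J.subgroupOf N)).comp (Subgroup.inclusion hMN)).codRestrict T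
    fun m => hmem m m.2
  have hφ : Function.Surjective φ := by
    rintro ⟨t, ht⟩
    obtain ⟨n, rfl⟩ := QuotientGroup.mk'_surjective (J.subgroupOf N) t
    exact ⟨⟨n, ⟨n, ht, rfl⟩⟩, rfl⟩
  refine ⟨M, e.toMonoidHom.comp φ, ?_⟩
  refine
    { e81 := ⟨fun x hx y hy => ?_, hJ.2, by rw [hJcard]; norm_num⟩
      JM := ?_
      surj := e.surjective.comp hφ
      ker := ?_
      norm := ?_
      three := ?_ }
  · exact congrArg Subtype.val (hJ.1.is_comm.comm (⟨x, hx⟩ : J) ⟨y, hy⟩)
  · intro j hj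
    refine ⟨⟨j, hJN hj⟩, ?_, rfl⟩
    change QuotientGroup.mk' (J.subgroupOf N) ⟨j, hJN hj⟩ ∈ T
    have : QuotientGroup.mk' (J.subgroupOf N) ⟨j, hJN hj⟩ = 1 := (QuotientGroup.eq_one_iff _).2 (mem_subgroupOf.2 hj)
    rw [this]
    exact one_mem _
  · intro m
    change e (φ m) = 1 ↔ _
    rw [map_eq_one_iff e e.injective]
    have h1 : φ m = 1 ↔ QuotientGroup.mk' (J.subgroupOf N) ⟨m, hMN m.2⟩ = 1 :=
      ⟨fun h => congrArg Subtype.val h, fun h => Subtype.ext h⟩
    rw [h1]
    exact (QuotientGroup.eq_one_iff _).trans mem_subgroupOf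
  · rintro n hn _ ⟨m, hm, rfl⟩
    have hM'n : M'.Normal := hTn.comap _
    exact ⟨_, hM'n.conj_mem m hm ⟨n, hNmem hn⟩, rfl⟩
  · intro x hx ⟨k, hk⟩
    refine ⟨⟨x, hNmem hx⟩, ?_, rfl⟩
    change QuotientGroup.mk' (J.subgroupOf N) ⟨x, hNmem hx⟩ ∈ T
    apply Subgroup.subset_closure
    obtain ⟨m, -, hm⟩ := (Nat.dvd_prime_pow Nat.prime_three).1
      (orderOf_dvd_of_pow_eq_one (x := QuotientGroup.mk' (J.subgroupOf N) ⟨x, hNmem hx⟩) (n := 3 ^ k) (by
        rw [← map_pow]
        have : (⟨x, hNmem hx⟩ : N) ^ 3 ^ k = 1 := Subtype.ext hk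
        rw [this, map_one]))
    exact ⟨m, hm⟩

/-- the conclusion -/
theorem genFitting_mcl {K : Subgroup G} (hK : K.Normal) (hs : IsSimpleGroup K) (hm : Cfsg.Spor.IsoMcL K)
    (hC : ∀ x, (∀ k ∈ K, x * k = k * x) → x = 1) : Cfsg.Spor.IsoMcL ↥(Cfsg.generalizedFittingSubgroup G) := by
  have hnc : ¬ IsMulCommutative K := by
    intro h
    have hn := hs.toNontrivial
    obtain ⟨k, hk⟩ := exists_ne (1 : K)
    apply hk
    apply Subtype.ext
    apply hC
    intro y hy
    exact congrArg Subtype.val (h.is_comm.comm k ⟨y, hy⟩)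
  have h1 : Cfsg.generalizedFittingSubgroup G = K := by
    apply H827.FStar.fstar_eq hK (CpAut.Fix.quasisimple_of_simple hnc)
    intro x hx
    rw [mem_centralizer_iff] at hx
    rw [hC x fun k hk => (hx k hk).symm]
    exact one_mem _
  rw [h1]
  exact hm

end Cfsg.Agent.H846
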